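import Cfsg.Agent.QdSection.Stability
import Cfsg.Agent.ConjFunctor.KInfFunctor
import Cfsg.Agent.SectionFunctors.Basic
import Cfsg.Agent.Eq.Def_LocalEven

/-!
In `Qd(p)` the lower K-infinity subgroup of a Sylow `p`-subgroup does not control strong fusion.
-/

set_option autoImplicit false

open Cfsg
open CfsgLib.QdRankTwo

namespace CfsgLib.QdSection

universe u

variable (p : ℕ) [Fact p.Prime]

/-- The upper unitriangular part of `Qd(p)`. -/
def qdUpper : Subgroup (Cfsg.qd p) where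
  carrier := {g | ∃ t u v : ZMod p, g = qM 1 t 0 1 u v (by ring)}
  one_mem' := ⟨0, 0, 0, qM_one.symm⟩
  mul_mem' := by
    rintro _ _ ⟨t, u, v, rfl⟩ ⟨t', u', v', rfl⟩
    refine ⟨t + t', u' + t * v' + u, v' + v, ?_⟩
    rw [qM_mul]; apply qM_congr <;> ring
  inv_mem' := by
    rintro _ ⟨t, u, v, rfl⟩
    refine ⟨-t, -u + t * v, -v, inv_eq_of_mul_eq_one_right ?_⟩
    rw [qM_mul, ← qM_one]; apply qM_congr <;> ring

/-- The abelian subgroup of the upper part moving one translation line only. -/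
def qdAbelianUpper : Subgroup (Cfsg.qd p) where
  carrier := {g | ∃ t u : ZMod p, g = qM 1 t 0 1 u 0 (by ring)}
  one_mem' := ⟨0, 0, qM_one.symm⟩
  mul_mem' := by
    rintro _ _ ⟨t, u, rfl⟩ ⟨t', u', rfl⟩
    refine ⟨t + t', u' + u, ?_⟩
    rw [qM_mul]; apply qM_congr <;> ring
  inv_mem' := by
    rintro _ ⟨t, u, rfl⟩
    refine ⟨-t, -u, inv_eq_of_mul_eq_one_right ?_⟩
    rw [qM_mul, ← qM_one]; apply qM_congr <;> ring

variable {p}

/-- The linear part of an element, read off from its entries. -/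
theorem qM_inj {a b c d u v : ZMod p} {h : a * d - b * c = 1} {a' b' c' d' u' v' : ZMod p}
    {h' : a' * d' - b' * c' = 1} (he : qM a b c d u v h = qM a' b' c' d' u' v' h') :
    a = a' ∧ b = b' ∧ c = c' ∧ d = d' ∧ u = u' ∧ v = v' := by
  have h0 := congrArg (fun g : Cfsg.qd p => g.1.1) he
  simp only [qM] at h0
  have e := fun i j => congrFun (congrFun h0 i) j
  exact ⟨by simpa using e 0 0, by simpa using e 0 1, by simpa using e 1 0, by simpa using e 1 1,
    by simpa using e 0 2, by simpa using e 1 2⟩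

theorem translations_le_qdUpper : CfsgLib.DefChar.qdTranslations p ≤ qdUpper p := fun g hg => by
  obtain ⟨u, v, rfl⟩ := exists_tV hg
  exact ⟨0, u, v, rfl⟩

theorem isPGroup_qdUpper : IsPGroup p (qdUpper p) := by
  rintro ⟨g, t, u, v, rfl⟩
  refine ⟨2, Subtype.ext ?_⟩
  have hpow : ∀ n : ℕ, ∃ w : ZMod p,
      qM 1 t 0 1 u v (by ring) ^ n = qM 1 ((n : ZMod p) * t) 0 1 w ((n : ZMod p) * v) (by ring) := by
    intro n
    induction n with
    | zero => exact ⟨0, by rw [pow_zero, ← qM_one]; apply qM_congr <;> simp⟩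
    | succ n ih =>
      obtain ⟨w, hw⟩ := ih
      refine ⟨u + (n : ZMod p) * t * v + w, ?_⟩
      rw [pow_succ, hw, qM_mul]; apply qM_congr <;> (push_cast; ring)
  obtain ⟨w, hw⟩ := hpow p
  have hmem : qM 1 t 0 1 u v (by ring) ^ p ∈ CfsgLib.DefChar.qdTranslations p := by
    rw [hw]
    have he : qM 1 ((p : ZMod p) * t) 0 1 w ((p : ZMod p) * v) (by ring) = tV w 0 := by
      rw [tV]; apply qM_congr <;> simp
    rw [he]; exact tV_mem _ _
  show qM 1 t 0 1 u v (by ring) ^ p ^ 2 = 1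
  rw [pow_two, pow_mul]
  exact translations_pow hmem

/-- The upper part is a Sylow subgroup. -/
theorem eq_qdUpper_of_le {T : Subgroup (Cfsg.qd p)} (hT : IsPGroup p T) (hle : qdUpper p ≤ T) : T = qdUpper p := by
  by_contra hne
  haveI : Group.IsNilpotent ↥T := hT.isNilpotent
  have hlt : (qdUpper p).subgroupOf T < ⊤ := by
    refine lt_top_iff_ne_top.2 fun h => hne (le_antisymm ?_ hle)
    rwa [Subgroup.subgroupOf_eq_top] at h
  obtain ⟨y, hy, hyP⟩ := SetLike.exists_of_lt (Group.normalizerCondition_of_isNilpotent _ hlt)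
  obtain ⟨a, b, c, d, u, v, h, hyq⟩ := exists_qM (y : Cfsg.qd p)
  have hu1 : tU (1 : ZMod p) ∈ qdUpper p := ⟨1, 0, 0, rfl⟩
  have hconj := (Subgroup.mem_normalizer_iff.1 hy ⟨_, hle hu1⟩).1 hu1
  obtain ⟨t, u', v', hc⟩ : (y : Cfsg.qd p) * tU 1 * (y : Cfsg.qd p)⁻¹ ∈ qdUpper p := hconj
  rw [mul_inv_eq_iff_eq_mul, hyq, tU, qM_mul, qM_mul] at hc
  obtain ⟨-, -, -, e4, -, -⟩ := qM_inj hc
  have hc0 : c = 0 := by linear_combination e4
  subst hc0
  obtain ⟨k, hk⟩ := hT y
  have hpow : ∀ n : ℕ, ∃ (b' u' v' : ZMod p) (h' : a ^ n * d ^ n - b' * 0 = 1),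
      qM a b 0 d u v h ^ n = qM (a ^ n) b' 0 (d ^ n) u' v' h' := by
    intro n
    induction n with
    | zero => exact ⟨0, 0, 0, by simp, by rw [pow_zero, ← qM_one]; apply qM_congr <;> simp⟩
    | succ n ih =>
      obtain ⟨b', u', v', h', hn⟩ := ih
      refine ⟨a ^ n * b + b' * d, a ^ n * u + b' * v + u', d ^ n * v + v', ?_, ?_⟩
      · linear_combination (a * d - 0) * h' + (1 : ZMod p) * h
      · rw [pow_succ, hn, qM_mul]; apply qM_congr <;> ring
  obtain ⟨b', u'', v'', h', hn⟩ := hpow (p ^ k)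
  have hyk : qM a b 0 d u v h ^ p ^ k = 1 := by
    rw [← hyq]; exact congrArg Subtype.val hk
  rw [hn, ← qM_one] at hyk
  obtain ⟨ea, -, -, ed, -, -⟩ := qM_inj hyk
  rw [ZMod.pow_card_pow] at ea ed
  refine hyP ?_
  show (y : Cfsg.qd p) ∈ qdUpper p
  exact ⟨b, u, v, hyq.trans (qM_congr ea rfl rfl ed rfl rfl)⟩

theorem centralizer_translations {g : Cfsg.qd p}
    (hg : g ∈ Subgroup.centralizer (CfsgLib.DefChar.qdTranslations p : Set (Cfsg.qd p))) :
    g ∈ CfsgLib.DefChar.qdTranslations p := by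
  obtain ⟨a, b, c, d, u, v, h, rfl⟩ := exists_qM g
  have h1 := Subgroup.mem_centralizer_iff.1 hg (tV 1 0) (tV_mem _ _)
  have h2 := Subgroup.mem_centralizer_iff.1 hg (tV 0 1) (tV_mem _ _)
  rw [tV, qM_mul, qM_mul] at h1 h2
  obtain ⟨-, -, -, -, eu, ev⟩ := qM_inj h1
  obtain ⟨-, -, -, -, eu', ev'⟩ := qM_inj h2
  have he : qM a b c d u v h = tV u v := by
    rw [tV]
    apply qM_congr
    · linear_combination -eu
    · linear_combination -eu'
    · linear_combination -ev
    · linear_combination -ev'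
    · rfl
    · rfl
  rw [he]; exact tV_mem _ _

theorem conj_tU_not_mem_qdUpper :
    qM (0 : ZMod p) 1 (-1) 0 0 0 (by ring) * tU 1 * (qM (0 : ZMod p) 1 (-1) 0 0 0 (by ring))⁻¹ ∉ qdUpper p := by
  rintro ⟨t, u, v, he⟩
  rw [mul_inv_eq_iff_eq_mul, tU, qM_mul, qM_mul] at he
  obtain ⟨-, -, -, e4, -, -⟩ := qM_inj he
  exact one_ne_zero (by linear_combination -e4)

/-- In a group isomorphic to `Qd(p)`, for some Sylow subgroup the lower K-infinity subgroup does not control
strong fusion. -/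
theorem exists_not_controlsStrongFusion {H : Type u} [Group H] [Finite H] (e : H ≃* Cfsg.qd p) :
    ∃ T : Sylow p H, ¬ ControlsStrongFusion p (inducedFunctor (G := H) kInfLower (T : Subgroup H)) := by
  have hPp : IsPGroup p ((qdUpper p).comap e.toMonoidHom) :=
    isPGroup_qdUpper.comap_of_injective _ e.injective
  obtain ⟨T, hT⟩ := hPp.exists_le_sylow
  have hTe : (T : Subgroup H).map e.toMonoidHom = qdUpper p := by
    refine eq_qdUpper_of_le (T.2.map _) ?_
    rw [← Subgroup.map_comap_eq_self_of_surjective (f := e.toMonoidHom) e.surjective (qdUpper p)]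
    exact Subgroup.map_mono hT
  refine ⟨T, fun ⟨T', hUT, hfus⟩ => ?_⟩
  set U := inducedFunctor (G := H) kInfLower (T : Subgroup H) with hU
  set V := (CfsgLib.DefChar.qdTranslations p).comap e.toMonoidHom with hV
  haveI hVn : V.Normal := (CfsgLib.DefChar.qdTranslations_normal p).comap _
  have hVp : IsPGroup p V := (CfsgLib.DefChar.qdTranslations_isPGroup p).comap_of_injective _ e.injective
  set g := e.symm (tU (1 : ZMod p)) with hg
  -- `U` contains the abelian normal subgroup of the upper part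
  have hgU : g ∈ U := by
    set A := ((qdAbelianUpper p).comap e.toMonoidHom).subgroupOf (T : Subgroup H) with hA
    have hAn : A.Normal := by
      refine ⟨?_⟩
      rintro ⟨x, hxT⟩ ⟨t, u, hx⟩ ⟨y, hyT⟩
      obtain ⟨t', u', v', hy⟩ : e y ∈ qdUpper p := hTe ▸ ⟨y, hyT, rfl⟩
      refine ⟨t, t' * 0 + u - t * v', ?_⟩
      show e (y * x * y⁻¹) = _
      change e x = _ at hx
      rw [map_mul, map_mul, map_inv, hx, hy, mul_inv_eq_iff_eq_mul, qM_mul, qM_mul]
      apply qM_congr <;> ring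
    have hAc : IsMulCommutative A := by
      refine ⟨⟨?_⟩⟩
      rintro ⟨⟨x, hxT⟩, t, u, hx⟩ ⟨⟨y, hyT⟩, t', u', hy⟩
      change e x = _ at hx
      change e y = _ at hy
      apply Subtype.ext; apply Subtype.ext
      show x * y = y * x
      apply e.injective
      rw [map_mul, map_mul, hx, hy, qM_mul, qM_mul]
      apply qM_congr <;> ring
    haveI := hAn
    have hgT : g ∈ (T : Subgroup H) := hT (show e g ∈ qdUpper p by
      rw [hg, MulEquiv.apply_symm_apply]; exact ⟨1, 0, 0, rfl⟩)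
    exact ⟨⟨g, hgT⟩, (CfsgLib.ConjFunctor.le_kInfLower 0) (CfsgLib.ConjFunctor.normal_abelian_le_kSeqEven A hAc 0
      (show e g ∈ qdAbelianUpper p by rw [hg, MulEquiv.apply_symm_apply]; exact ⟨1, 0, rfl⟩)), rfl⟩
  have hVT : V ≤ (T : Subgroup H) := (Subgroup.comap_mono translations_le_qdUpper).trans hT
  have hTN : (T : Subgroup H) ≤ Subgroup.normalizer (U : Set H) :=
    CfsgLib.SectionFunctors.le_normalizer_inducedFunctor CfsgLib.ConjFunctor.isCharPFunctor_kInfLower T.2
  -- control of the fusion of the translations makes `U` normal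
  have hVT' : V ≤ (T' : Subgroup H) :=
    (CfsgLib.Constrained.le_pCore hVn hVp).trans (CfsgLib.ConjFunctor.pCore_le_sylow T')
  have hall : ∀ h : H, h ∈ Subgroup.normalizer (U : Set H) := by
    intro h
    obtain ⟨x, hx, hxe⟩ := (hfus (V : Set H) hVT').2 h (by
      rintro _ ⟨a, ha, rfl⟩
      exact hVT' (hVn.conj_mem a ha h))
    have hc : x⁻¹ * h ∈ V := by
      show e (x⁻¹ * h) ∈ CfsgLib.DefChar.qdTranslations p
      refine centralizer_translations (Subgroup.mem_centralizer_iff.2 fun w hw => ?_)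
      obtain ⟨a, rfl⟩ := e.surjective w
      have h1 := hxe a hw
      rw [← map_mul, ← map_mul]
      congr 1
      calc a * (x⁻¹ * h) = x⁻¹ * (x * a * x⁻¹) * h := by group
        _ = x⁻¹ * (h * a * h⁻¹) * h := by rw [h1]
        _ = (x⁻¹ * h) * a := by group
    have h2 : h = x * (x⁻¹ * h) := by group
    rw [h2]
    exact Subgroup.mul_mem _ hx (hTN (hVT hc))
  have hUn : U.Normal := Subgroup.normalizer_eq_top_iff.1 (eq_top_iff.2 fun h _ => hall h)
  set w := e.symm (qM (0 : ZMod p) 1 (-1) 0 0 0 (by ring))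
  refine conj_tU_not_mem_qdUpper (p := p) (hTe ▸ ⟨w * g * w⁻¹,
    CfsgLib.SectionFunctors.inducedFunctor_le _ (hUn.conj_mem g hgU w), ?_⟩)
  simp [w, hg]

end CfsgLib.QdSection
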